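import Cfsg.Agent.H960.KGV.RowTab
import Cfsg.Agent.H539.IdxAlt
import Cfsg.Agent.H539.PartCount
import Cfsg.Agent.H189.FeitTits

set_option autoImplicit false

/-!
# Task 2006: the row of the alternating groups in the table `Row` (project of helper960)

`row`: `Row T` for `T ≅ A_n`, `n ≥ 5`. For `n ≥ 9` the theorem of Feit and Tits (helper189) gives
`d ≥ n - 1`; together with `p > n` and `k(A_n) < k(S_n) ≤ fib (n + 1)` this is far more than needed. For
`n ≤ 8` the bounds of the class number suffice (with the order of `A_8` for `Q = 11`, `d = 3`).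
-/

namespace Cfsg.Agent.H872.KGV.Alt

open Cfsg Cfsg.Agent.H960.KGV Cfsg.Agent.H540.ClassNum

theorem le_two_pow_pred {f : ℕ} (hf : 1 ≤ f) : f ≤ 2 ^ (f - 1) := by
  obtain ⟨g, rfl⟩ : ∃ g, f = g + 1 := ⟨f - 1, by omega⟩
  have := Nat.lt_two_pow_self (n := g)
  rw [Nat.add_sub_cancel]
  omega

/-- the step from `2 f K ≤ Q ^ (d - 1)` -/
theorem step {Q f K d : ℕ} (hd : 1 ≤ d) (hQ : 1 ≤ Q) (h : 2 * f * K ≤ Q ^ (d - 1)) :
    2 * f * (Q - 1) * K ≤ Q ^ d := by
  calc 2 * f * (Q - 1) * K = (Q - 1) * (2 * f * K) := by ring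
    _ ≤ Q * Q ^ (d - 1) := Nat.mul_le_mul (by omega) h
    _ = Q ^ d := by
        rw [← pow_succ']
        congr 1
        omega

theorem key {p f d K : ℕ} (hp : 2 ≤ p) (hf : 1 ≤ f) (hd : 3 ≤ d) (h : 2 * K ≤ p ^ (d - 1)) :
    2 * f * (p ^ f - 1) * K ≤ (p ^ f) ^ d := by
  apply step (by omega) (Nat.one_le_pow _ _ (by omega))
  have h1 : f ≤ (p ^ (f - 1)) ^ (d - 1) := by
    calc f ≤ 2 ^ (f - 1) := le_two_pow_pred hf
      _ ≤ p ^ (f - 1) := Nat.pow_le_pow_left hp _
      _ ≤ (p ^ (f - 1)) ^ (d - 1) := Nat.le_self_pow (by omega) _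
  calc 2 * f * K = f * (2 * K) := by ring
    _ ≤ (p ^ (f - 1)) ^ (d - 1) * p ^ (d - 1) := Nat.mul_le_mul h1 h
    _ = (p ^ f) ^ (d - 1) := by
        rw [← mul_pow, ← pow_succ]
        congr 2
        omega

/-- the case `f ≥ 2` -/
theorem key_two {p f d K : ℕ} (hp : 7 ≤ p) (hf : 2 ≤ f) (hd : 3 ≤ d) (h : 2 * K ≤ 7 * p ^ (d - 1)) :
    2 * f * (p ^ f - 1) * K ≤ (p ^ f) ^ d := by
  apply step (by omega) (Nat.one_le_pow _ _ (by omega))
  have h1 : 7 * f ≤ (p ^ (f - 1)) ^ (d - 1) := by
    calc 7 * f ≤ 7 ^ (f - 1) * 2 ^ (f - 1) :=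
          Nat.mul_le_mul (Nat.le_self_pow (by omega) _) (le_two_pow_pred (by omega))
      _ ≤ 7 ^ (f - 1) * 7 ^ (f - 1) := Nat.mul_le_mul_left _ (Nat.pow_le_pow_left (by norm_num) _)
      _ = (7 ^ (f - 1)) ^ 2 := by rw [sq]
      _ ≤ (p ^ (f - 1)) ^ 2 := Nat.pow_le_pow_left (Nat.pow_le_pow_left hp _) _
      _ ≤ (p ^ (f - 1)) ^ (d - 1) :=
          Nat.pow_le_pow_right (Nat.one_le_pow _ _ (by omega)) (by omega)
  calc 2 * f * K = f * (2 * K) := by ring
    _ ≤ f * (7 * p ^ (d - 1)) := Nat.mul_le_mul_left _ h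
    _ = (7 * f) * p ^ (d - 1) := by ring
    _ ≤ (p ^ (f - 1)) ^ (d - 1) * p ^ (d - 1) := Nat.mul_le_mul_right _ h1
    _ = (p ^ f) ^ (d - 1) := by
        rw [← mul_pow, ← pow_succ]
        congr 2
        omega

/-- a prime not dividing the order is larger than `n` -/
theorem lt_of_not_dvd {n p : ℕ} (hn : 5 ≤ n) (hp : p.Prime)
    (h : ¬ p ∣ Nat.card (alternatingGroup (Fin n))) : n < p := by
  by_contra hcon
  push Not at hcon
  apply h
  have h1 := H539.IdxAlt.two_mul_card hn
  by_cases h2 : p = 2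
  · subst h2
    have h3 : Nat.factorial 4 ∣ n.factorial := Nat.factorial_dvd_factorial (by omega)
    rw [← h1] at h3
    have h4 : Nat.factorial 4 = 2 * 12 := rfl
    rw [h4] at h3
    exact (by norm_num : 2 ∣ 12).trans (Nat.dvd_of_mul_dvd_mul_left (by norm_num) h3)
  · have h3 : p ∣ 2 * Nat.card (alternatingGroup (Fin n)) := by
      rw [h1]
      exact hp.dvd_factorial.2 hcon
    rcases hp.dvd_mul.1 h3 with h4 | h4
    · exact absurd ((Nat.prime_dvd_prime_iff_eq hp Nat.prime_two).1 h4) h2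
    · exact h4

theorem k_lt_fib {n : ℕ} (hn : 5 ≤ n) :
    Nat.card (ConjClasses (alternatingGroup (Fin n))) < Nat.fib (n + 1) := by
  have h1 := H539.PartCount.card_conjClasses_alternating_lt (α := Fin n) (by simpa using hn)
  have h2 := H539.PartCount.card_conjClasses_perm_le_fib (Fin n)
  rw [Fintype.card_fin] at h2
  omega

/-- Feit and Tits -/
theorem le_deg {T : Type} [Group T] {p f d n : ℕ} (hp : p.Prime) (hn : 9 ≤ n) (hnp : n < p)
    (e : T ≃* alternatingGroup (Fin n)) (h : HasRep T p f d) : n - 1 ≤ d := by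
  obtain ⟨E, _, _, F, _, _, ρ, _, ⟨e0⟩, _, hF, hρ, _, _⟩ := h
  have : Fact p.Prime := ⟨hp⟩
  have : Fintype F := Fintype.ofFinite F
  have : CharP F p := charP_of_card_eq_prime_pow (f := f) (by rw [← Nat.card_eq_fintype_card, hF])
  let π : E →* alternatingGroup (Fin n) :=
    e.toMonoidHom.comp (e0.toMonoidHom.comp (QuotientGroup.mk' (Subgroup.center E)))
  have hπ : Function.Surjective π :=
    e.surjective.comp (e0.surjective.comp (QuotientGroup.mk'_surjective _))
  let ψ : GL (Fin d) F →* Module.End F (Fin d → F) :=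
    ((Matrix.toLinAlgEquiv' : Matrix (Fin d) (Fin d) F ≃ₐ[F] _).toAlgHom.toRingHom.toMonoidHom.comp
      (Units.coeHom (Matrix (Fin d) (Fin d) F)))
  have hψ : Function.Injective ψ :=
    (Matrix.toLinAlgEquiv' : Matrix (Fin d) (Fin d) F ≃ₐ[F] _).injective.comp Units.val_injective
  have h1 := H189.FeitTits.feit_tits p (V := Fin d → F) hn π hπ (ψ.comp ρ) (by
    intro g hg
    have h2 : ρ g = 1 := hψ (by rw [map_one]; exact hg)
    have h3 : g = 1 := hρ (by rw [map_one]; exact h2)
    rw [h3, map_one])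
  rw [Module.finrank_fin_fun] at h1
  have h4 : ¬ p ∣ n := fun h => absurd (Nat.le_of_dvd (by omega) h) (by omega)
  rw [if_neg h4] at h1
  omega

/-- the class number and the outer automorphism group of `A_6` -/
theorem six : Nat.card (ConjClasses (alternatingGroup (Fin 6))) *
    Nat.card (Cfsg.Out (alternatingGroup (Fin 6))) ≤ 28 := by
  classical
  let F := GaloisField 3 2
  have hF9 : Nat.card F = 9 := by
    have := GaloisField.card 3 2 (by norm_num)
    rw [this]; norm_num
  have hFf : Finite F := Nat.finite_of_card_ne_zero (by rw [hF9]; norm_num)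
  have : Fintype F := Fintype.ofFinite F
  have hF : Fintype.card F = 9 := by rw [← Nat.card_eq_fintype_card, hF9]
  obtain ⟨e⟩ := S0254.result hF
  have h3 : Fact (Nat.Prime 3) := ⟨Nat.prime_three⟩
  obtain ⟨φ, hφ, _, hker⟩ := S2602.result (F := F) (p := 3) (f := 2) (by norm_num)
    (by rw [hF]; norm_num) (by norm_num)
  have hout : Nat.card (Cfsg.Out (Matrix.ProjectiveSpecialLinearGroup (Fin 2) F)) ≤ 4 := by
    have h4 := φ.ker.card_mul_index
    rw [Subgroup.index_ker, hker, MonoidHom.range_eq_top.2 hφ, Subgroup.card_top] at h4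
    have h5 : Nat.card (Multiplicative (ZMod 2)) = 2 := by
      rw [Nat.card_congr (Multiplicative.toAdd), Nat.card_eq_fintype_card, ZMod.card]
    rw [h5] at h4
    have h6 : Nat.gcd 2 (3 ^ 2 - 1) = 2 := by norm_num
    rw [h6] at h4
    omega
  have hk := (S2480.result (F := F) 2 (by norm_num)).2
  rw [hF] at hk
  have hk2 : Nat.card (ConjClasses (Matrix.ProjectiveSpecialLinearGroup (Fin 2) F)) ≤ 7 := by
    have h6 : Nat.gcd 2 (9 - 1) = 2 := by norm_num
    rw [h6] at hk
    omega
  rw [← H55.OutGen.card_out_congr e, ← card_conjClasses_congr e]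
  exact Nat.mul_le_mul hk2 hout

/-- `Row` for `A_n` -/
theorem row_alt {T : Type} [Group T] {n : ℕ} (hn : 5 ≤ n) (e : T ≃* alternatingGroup (Fin n)) :
    Row T := by
  intro p f d h
  have hp := h.prime
  have hf := h.f_pos
  have hd := h.three_le
  have hT : Nat.card T = Nat.card (alternatingGroup (Fin n)) := Nat.card_congr e.toEquiv
  have hc := h.coprime
  rw [hT] at hc
  have hnp := lt_of_not_dvd hn hp hc
  have hk := k_lt_fib hn
  rw [H55.OutGen.card_out_congr e, card_conjClasses_congr e]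
  have hp2 := hp.two_le
  by_cases h6 : n = 6
  · subst h6
    have hK := six
    generalize Nat.card (ConjClasses (alternatingGroup (Fin 6))) *
      Nat.card (Cfsg.Out (alternatingGroup (Fin 6))) = K at hK ⊢
    by_cases hp7 : p = 7
    · subst hp7
      by_cases hd3 : d = 3
      · subst hd3
        by_cases hf1 : f = 1
        · subst hf1
          omega
        · exact key_two le_rfl (by omega) le_rfl (by norm_num; omega)
      · refine key hp2 hf hd ?_
        calc 2 * K ≤ 7 ^ 3 := by omega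
          _ ≤ 7 ^ (d - 1) := Nat.pow_le_pow_right (by norm_num) (by omega)
    · have h11 : 8 ≤ p := by omega
      refine key hp2 hf hd ?_
      calc 2 * K ≤ 8 ^ 2 := by omega
        _ ≤ p ^ 2 := Nat.pow_le_pow_left h11 2
        _ ≤ p ^ (d - 1) := Nat.pow_le_pow_right (by omega) (by omega)
  · rw [H539.IdxAlt.card_out hn h6]
    generalize hkk : Nat.card (ConjClasses (alternatingGroup (Fin n))) = k at hk ⊢
    by_cases h9 : 9 ≤ n
    · have hdn := le_deg hp h9 hnp e h.rep
      refine key hp2 hf hd ?_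
      have h1 : Nat.fib (n + 1) ≤ 2 ^ (n - 2) := by
        obtain ⟨m, rfl⟩ : ∃ m, n = m + 5 := ⟨n - 5, by omega⟩
        exact H539.PartCount.fib_le_two_pow m
      calc 2 * (k * 2) ≤ 4 * 2 ^ (n - 2) := by omega
        _ = 2 ^ n := by
            rw [show (4 : ℕ) = 2 ^ 2 from rfl, ← pow_add]
            congr 1
            omega
        _ ≤ 2 ^ (3 * (n - 2)) := Nat.pow_le_pow_right (by norm_num) (by omega)
        _ = 8 ^ (n - 2) := by rw [pow_mul]; norm_num
        _ ≤ p ^ (n - 2) := Nat.pow_le_pow_left (by omega) _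
        _ ≤ p ^ (d - 1) := Nat.pow_le_pow_right (by omega) (by omega)
    · have hp5 : ¬ p = 8 ∧ ¬ p = 9 ∧ ¬ p = 10 ∧ ¬ p = 12 ∧ ¬ p = 6 := by
        refine ⟨?_, ?_, ?_, ?_, ?_⟩ <;> rintro rfl <;> revert hp <;> norm_num
      have h578 : n = 5 ∨ n = 7 ∨ n = 8 := by omega
      rcases h578 with rfl | rfl | rfl
      · -- `n = 5`
        have h1 : Nat.fib (5 + 1) = 8 := rfl
        refine key hp2 hf hd ?_
        calc 2 * (k * 2) ≤ 7 ^ 2 := by omega
          _ ≤ p ^ 2 := Nat.pow_le_pow_left (by omega) 2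
          _ ≤ p ^ (d - 1) := Nat.pow_le_pow_right (by omega) (by omega)
      · -- `n = 7`
        have h1 : Nat.fib (7 + 1) = 21 := rfl
        refine key hp2 hf hd ?_
        calc 2 * (k * 2) ≤ 11 ^ 2 := by omega
          _ ≤ p ^ 2 := Nat.pow_le_pow_left (by omega) 2
          _ ≤ p ^ (d - 1) := Nat.pow_le_pow_right (by omega) (by omega)
      · -- `n = 8`
        have h1 : Nat.fib (8 + 1) = 34 := rfl
        by_cases hp11 : p = 11
        · subst hp11
          by_cases hd3 : d = 3
          · subst hd3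
            by_cases hf1 : f = 1
            · subst hf1
              exfalso
              have h2 := h.dvd
              have h3 := H539.IdxAlt.two_mul_card hn
              have h4 : Nat.factorial 8 = 2 * 20160 := rfl
              have h5 : Nat.card T = 20160 := by rw [hT]; omega
              rw [h5] at h2
              revert h2
              decide
            · exact key_two (by norm_num) (by omega) le_rfl (by norm_num; omega)
          · refine key hp2 hf hd ?_
            calc 2 * (k * 2) ≤ 11 ^ 3 := by omega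
              _ ≤ 11 ^ (d - 1) := Nat.pow_le_pow_right (by norm_num) (by omega)
        · refine key hp2 hf hd ?_
          calc 2 * (k * 2) ≤ 13 ^ 2 := by omega
            _ ≤ p ^ 2 := Nat.pow_le_pow_left (by omega) 2
            _ ≤ p ^ (d - 1) := Nat.pow_le_pow_right (by omega) (by omega)

/-- **the row of the alternating groups.** -/
theorem row : RowOf (fun T _ => ∃ n : ℕ, 5 ≤ n ∧ Nonempty (T ≃* ↥(alternatingGroup (Fin n)))) := by
  intro T _ _ _ _ h
  obtain ⟨n, hn, ⟨e⟩⟩ := h
  exact row_alt hn e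

end Cfsg.Agent.H872.KGV.Alt
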